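import Cfsg.Agent.H490.Gen.PslInner
import Cfsg.Agent.Schreier.PSU

/-!
# S2187, row `PSU_n(q)`: groups of inner-diagonal automorphisms (helper490)
-/

set_option autoImplicit false
set_option linter.unusedSectionVars false

namespace Cfsg.Agent.H490.Gen

open Cfsg Subgroup Matrix
open Cfsg.Agent.H818.Gen
open Cfsg.Agent.LieClassical.HermBasic Cfsg.Agent.LieClassical.HermSiegel Cfsg.Agent.LieClassical.SUBasic
open Cfsg.Agent.ClassicalGeometry.PSUAutBasic
open Cfsg.Agent.ClassicalGeometry.PSUAutCount (gm semiConj toAut herm_gm act_semiConj gm_mulVec_inv gm_inv_mulVec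
  gm_mul gm_mul_inv eq_of_toAut_eq toAut_sc_mul sc gm_sc_mul gm_inj)
open Cfsg.Agent.Schreier.PSU (f₁)

/-- injective homomorphisms preserve `HC` -/
theorem HC.map {Γ Γ' : Type*} [Group Γ] [Group Γ'] (i : Γ →* Γ') (hi : Function.Injective i) {p : ℕ}
    {Z A S N : Subgroup Γ} (h : HC p Z A S N) : HC p (Z.map i) (A.map i) (S.map i) (N.map i) := by
  intro K hK hZ hr s hs hf
  obtain ⟨t, ht, rfl⟩ := hs
  obtain ⟨L, rfl⟩ : ∃ L : Subgroup Γ, L.map i = K := by
    refine ⟨K.comap i, map_comap_eq_self (hK.trans ?_)⟩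
    rintro _ ⟨a, -, rfl⟩
    exact ⟨a, rfl⟩
  rw [map_le_map_iff_of_injective hi] at hK hZ
  rw [relIndex_map_map_of_injective _ _ hi] at hr
  exact ⟨t, h L hK hZ hr t ht fun f hf' => hi (by rw [map_mul, map_mul]; exact hf _ ⟨f, hf', rfl⟩), rfl⟩

/-- the commuting case for the group `S ≤ GL_n(F)` (`G` the group of the isometries) -/
def CRow (p : ℕ) {n : ℕ} {F : Type*} [Field F] (G : Subgroup (GL (Fin n) F)) (P : Submodule F (Fin n → F) → Prop) : Prop :=
  ∀ A : Subgroup (GL (Fin n) F), A ≤ G → G ⊓ Geo.scalars (Fin n) F ≤ A → (∀ x ∈ A, x ^ p ∈ Geo.scalars (Fin n) F) →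
    (∀ x ∈ A, ∀ y ∈ A, x * y = y * x) → p ^ 2 ≤ (G ⊓ Geo.scalars (Fin n) F).relIndex A →
    (∀ W : Submodule F (Fin n → F), (∀ f ∈ A, ∀ w ∈ W, (f : Matrix (Fin n) (Fin n) F) *ᵥ w ∈ W) → P W) →
    ∀ N : Subgroup (GL (Fin n) F), N ≤ G ⊓ Geo.specialLinear (Fin n) F →
      HC p (G ⊓ Geo.scalars (Fin n) F) A (G ⊓ Geo.specialLinear (Fin n) F) N → G ⊓ Geo.specialLinear (Fin n) F ≤ N

section row

variable {F : Type} [Field F] [Fintype F] {n q : ℕ}

/-- the elements of determinant one of `GU_n` -/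
def sgu (n : ℕ) (F : Type) [Field F] (q : ℕ) : Subgroup ↥(GU n F q) := (Geo.specialLinear (Fin n) F).subgroupOf (GU n F q)

/-- the element of `SU_n(F)` -/
def toSU (s : ↥(sgu n F q)) : SU n F q :=
  ⟨⟨gm (s : GU n F q), by
    have h1 : Matrix.GeneralLinearGroup.det ((s : GU n F q) : GL (Fin n) F) = 1 := MonoidHom.mem_ker.1 (mem_subgroupOf.1 s.2)
    exact congrArg (fun u : Fˣ => (u : F)) h1⟩, (s : GU n F q).2⟩

theorem mat_toSU (s : ↥(sgu n F q)) : mat (toSU s) = gm (s : GU n F q) := rfl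

/-- the map onto `PSU_n(q)` -/
def piU : ↥(sgu n F q) →* PSU n F q where
  toFun s := pr n F q (toSU s)
  map_one' := by
    rw [show toSU (1 : ↥(sgu n F q)) = 1 from Subtype.ext (Subtype.ext rfl), map_one]
  map_mul' a b := by
    rw [← map_mul, show toSU (a * b) = toSU a * toSU b from Subtype.ext (Subtype.ext rfl)]

theorem piU_surj : Function.Surjective (piU (F := F) (n := n) (q := q)) := by
  intro x
  obtain ⟨s, rfl⟩ := pr_surjective x
  refine ⟨⟨⟨((s : Matrix.SpecialLinearGroup (Fin n) F) : GL (Fin n) F), s.2⟩,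
    mem_subgroupOf.2 (MonoidHom.mem_ker.2 (Units.ext (s : Matrix.SpecialLinearGroup (Fin n) F).2))⟩, ?_⟩
  exact congrArg (pr n F q) (Subtype.ext (Subtype.ext rfl))

theorem ker_f₁ (hF : Fintype.card F = q ^ 2) (hn : 3 ≤ n) :
    ((f₁ : GU n F q →* MulAut (PSU n F q)).ker).map (GU n F q).subtype = GU n F q ⊓ Geo.scalars (Fin n) F := by
  ext g
  constructor
  · rintro ⟨a, ha, rfl⟩
    refine mem_inf.2 ⟨a.2, ?_⟩
    have h1 : toAut a 1 = toAut 1 1 := by
      have h2 : f₁ a = f₁ 1 := by rw [map_one]; exact MonoidHom.mem_ker.1 ha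
      exact h2
    obtain ⟨-, c, hc, h⟩ := eq_of_toAut_eq hF hn h1
    have hc0 : c ≠ 0 := by
      rintro rfl
      rw [zero_mul] at hc
      exact zero_ne_one hc
    have h3 : gm a = c⁻¹ • (1 : Matrix (Fin n) (Fin n) F) := by
      rw [show (1 : Matrix (Fin n) (Fin n) F) = c • gm a from h, smul_smul, inv_mul_cancel₀ hc0, one_smul]
    exact (Geo.mem_scalars_iff _).2 ⟨(Units.mk0 c hc0)⁻¹, h3⟩
  · intro h
    obtain ⟨h1, h2⟩ := mem_inf.1 h
    obtain ⟨c, hc⟩ := (Geo.mem_scalars_iff _).1 h2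
    refine ⟨⟨g, h1⟩, ?_, rfl⟩
    rw [SetLike.mem_coe, MonoidHom.mem_ker]
    ext x
    obtain ⟨s, rfl⟩ := pr_surjective x
    show pr n F q (semiConj ⟨g, h1⟩ 1 s) = pr n F q s
    congr 1
    apply ext_act
    intro v
    rw [Schreier.PSU.act_semiConj_one']
    have h3 : ∀ w : Fin n → F, gm (⟨g, h1⟩ : GU n F q) *ᵥ w = (c : F) • w := by
      intro w
      show (g : Matrix (Fin n) (Fin n) F) *ᵥ w = (c : F) • w
      rw [hc, smul_mulVec, one_mulVec]
    rw [h3]
    have h4 : act s (gm (⟨g, h1⟩ : GU n F q)⁻¹ *ᵥ v) = gm (⟨g, h1⟩ : GU n F q)⁻¹ *ᵥ act s v := by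
      have h5 : ∀ w : Fin n → F, gm (⟨g, h1⟩ : GU n F q)⁻¹ *ᵥ w = (c⁻¹ : F) • w := by
        intro w
        have h6 := gm_inv_mulVec (⟨g, h1⟩ : GU n F q) w
        rw [h3, mulVec_smul] at h6
        rw [eq_inv_smul_iff₀ c.ne_zero]
        exact h6
      rw [h5, h5, act_smul]
    rw [h4, ← h3 (gm _ *ᵥ _), gm_mulVec_inv]

/-- totally isotropic subspaces -/
def TI (n : ℕ) (F : Type*) [Field F] (q : ℕ) (W : Submodule F (Fin n → F)) : Prop :=
  ∀ u ∈ W, ∀ v ∈ W, hermForm n F q u v = 0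

/-- **the isotropic case** -/
theorem isotropic {r p : ℕ} [CharP F r] (hC : Cond r p) (hF : Fintype.card F = q ^ 2) (hn : 3 ≤ n)
    (h32 : ¬ (n = 3 ∧ q = 2)) {E : Subgroup (MulAut (PSU n F q))} (hE : IsElementaryAbelian p E)
    (hc : p ^ 2 ≤ Nat.card E) {W : Submodule F (Fin n → F)} (h0 : W ≠ ⊥) (h1 : TI n F q W)
    (hW : ∀ α ∈ E, ∃ a : GU n F q, f₁ a = α ∧ (∀ w ∈ W, gm a *ᵥ w ∈ W) ∧ ∀ w ∈ W, gm a⁻¹ *ᵥ w ∈ W) : Gam p E = ⊤ := by
  have hr : Fact r.Prime := ⟨hC.r_prime⟩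
  have hp : Fact p.Prime := ⟨hC.p_prime⟩
  have hsimple : IsSimpleGroup (PSU n F q) := S0283.result hF n hn h32
  have hfilt : KFacts.RgdFilt.HasFilt r (PSU n F q) :=
    KFacts.RgdLieCharP.hasFilt_of_lie (Or.inr (Or.inr (Or.inl ⟨F, inferInstance, inferInstance, inferInstance, n, q, hF,
      hn, h32, ⟨MulEquiv.refl _⟩⟩)))
  have hnc : ∃ a b : PSU n F q, a * b ≠ b * a := by
    by_contra hcon
    push Not at hcon
    exact CpAut.Fix.not_comm_quot (H := SU n F q) ⟨⟨hcon⟩⟩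
  let i : SU n F q →* GL (Fin n) F := Matrix.SpecialLinearGroup.toGL.comp (SU n F q).subtype
  have hi : ∀ (s : SU n F q) v, ((i s : GL (Fin n) F) : Matrix (Fin n) (Fin n) F) *ᵥ v = act s v := fun s v => rfl
  let U : Subgroup (SU n F q) := (uniL W).comap i
  have hmap : ∀ α ∈ E, (U.map (pr n F q)).map α.toMonoidHom ≤ U.map (pr n F q) := by
    rintro α hα _ ⟨_, ⟨u, hu, rfl⟩, rfl⟩
    obtain ⟨a, rfl, ha, ha'⟩ := hW α hα
    refine ⟨semiConj a 1 u, ?_, rfl⟩
    show i (semiConj a 1 u) ∈ uniL W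
    have h2 : i (semiConj a 1 u) = (a : GL (Fin n) F) * i u * (a : GL (Fin n) F)⁻¹ := by
      apply gl_ext
      intro v
      rw [hi, Schreier.PSU.act_semiConj_one', Units.val_mul, Units.val_mul, ← mulVec_mulVec, ← mulVec_mulVec, hi]
      rfl
    rw [h2]
    exact conj_mem_uniL ha ha' hu
  refine H522.Gen.top_of_filt hfilt hnc hC.p_ne_r hE hc (K := U.map (pr n F q)) ?_ ?_ ?_
  · rintro ⟨_, u, hu, rfl⟩
    refine ⟨1, Subtype.ext ?_⟩
    show (pr n F q u) ^ r ^ 1 = 1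
    rw [pow_one, ← map_pow]
    have h2 : i (u ^ r) = 1 := by
      rw [map_pow]
      exact uniL_pow_char (show i u ∈ uniL W from hu) r
    have h3 : u ^ r = 1 := by
      apply ext_act
      intro v
      rw [← hi, h2, Units.val_one, one_mulVec, act_one]
    rw [h3, map_one]
  · intro hbot
    obtain ⟨w, hw, hw0⟩ := (Submodule.ne_bot_iff W).1 h0
    obtain ⟨μ, hμ0, hμ⟩ := exists_trace_zero_ne hF
    have hww := h1 w hw w hw
    have h2 : pr n F q (transv hF w hww μ hμ) ∈ U.map (pr n F q) := by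
      refine ⟨_, ?_, rfl⟩
      refine ⟨fun v => ?_, fun v hv => ?_⟩
      · rw [hi, act_transv, add_sub_cancel_left]
        exact W.smul_mem _ hw
      · rw [hi, act_transv, h1 v hv w hw, mul_zero, zero_smul, add_zero]
    rw [hbot, mem_bot, pr_eq_one_iff] at h2
    obtain ⟨c, hc0, -, hcv⟩ := exists_scalar_of_mem_center hF hn h2
    have h3 : c = 1 := by
      have h4 := hcv w
      rw [act_transv, hww, mul_zero, zero_smul, add_zero] at h4
      have h5 : (c - 1) • w = 0 := by rw [sub_smul, one_smul, ← h4, sub_self]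
      rcases smul_eq_zero.1 h5 with h6 | h6
      · exact sub_eq_zero.1 h6
      · exact absurd h6 hw0
    have h4 : ∀ v, hermForm n F q v w = 0 := by
      intro v
      have h5 := hcv v
      rw [act_transv, h3, one_smul, add_eq_left] at h5
      rcases smul_eq_zero.1 h5 with h6 | h6
      · exact (mul_eq_zero.1 h6).resolve_left hμ0
      · exact absurd h6 hw0
    obtain ⟨j, hj⟩ := Function.ne_iff.1 hw0
    have h5 := h4 (Pi.single j 1)
    rw [hermForm, Finset.sum_eq_single j] at h5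
    · rw [Pi.single_eq_same, one_mul] at h5
      exact hj (eq_zero_of_pow_eq_zero h5)
    · intro k _ hk
      rw [Pi.single_eq_of_ne hk, zero_mul]
    · intro h
      exact absurd (Finset.mem_univ j) h
  · intro α hα
    apply le_antisymm (hmap α hα)
    intro x hx
    have h2 := hmap α⁻¹ (E.inv_mem hα) ⟨x, hx, rfl⟩
    exact ⟨_, h2, MulAut.apply_inv_self _ α x⟩

/-- **Groups of inner-diagonal automorphisms of `PSU_n(q)`** -/
theorem inner_psu {r p : ℕ} [CharP F r] (hC : Cond r p) (hF : Fintype.card F = q ^ 2) (hn : 3 ≤ n)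
    (h32 : ¬ (n = 3 ∧ q = 2)) (hnc : NCRow p (GU n F q) fun W => TI n F q W → W = ⊥)
    (hcom : CRow p (GU n F q) fun W => TI n F q W → W = ⊥)
    {E : Subgroup (MulAut (PSU n F q))} (hE : IsElementaryAbelian p E)
    (hc : p ^ 2 ≤ Nat.card E) (hin : ∀ α ∈ E, ∃ a : GU n F q, f₁ a = α) : Gam p E = ⊤ := by
  have hp : Fact p.Prime := ⟨hC.p_prime⟩
  set f : GU n F q →* MulAut (PSU n F q) := f₁ with hf
  set A : Subgroup ↥(GU n F q) := E.comap f with hA
  have hmap : A.map f = E := by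
    apply le_antisymm
    · rintro _ ⟨a, ha, rfl⟩
      exact ha
    · intro α hα
      obtain ⟨a, rfl⟩ := hin α hα
      exact ⟨a, hα, rfl⟩
  have hker : f.ker ≤ A := fun a ha => by
    rw [hA, mem_comap, MonoidHom.mem_ker.1 ha]
    exact E.one_mem
  set B : Subgroup (GL (Fin n) F) := A.map (GU n F q).subtype with hB
  have hBmem : ∀ x, x ∈ B ↔ ∃ a : GU n F q, f a ∈ E ∧ (a : GL (Fin n) F) = x := fun x => Iff.rfl
  by_cases hani : ∀ W : Submodule F (Fin n → F), (∀ g ∈ B, ∀ w ∈ W, (g : Matrix (Fin n) (Fin n) F) *ᵥ w ∈ W) →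
      TI n F q W → W = ⊥
  swap
  · push Not at hani
    obtain ⟨W, hW, h1, h0⟩ := hani
    refine isotropic hC hF hn h32 hE hc h0 h1 fun α hα => ?_
    obtain ⟨a, rfl⟩ := hin α hα
    exact ⟨a, rfl, hW a ⟨a, hα, rfl⟩, hW ((a⁻¹ : GU n F q) : GL (Fin n) F) ⟨a⁻¹, A.inv_mem hα, rfl⟩⟩
  have hle : B ≤ GU n F q := map_subtype_le A
  have hsc : (f.ker).map (GU n F q).subtype = GU n F q ⊓ Geo.scalars (Fin n) F := ker_f₁ hF hn
  have hsc' : GU n F q ⊓ Geo.scalars (Fin n) F ≤ B := by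
    rw [← hsc]
    exact map_mono hker
  have hpow : ∀ x ∈ B, x ^ p ∈ Geo.scalars (Fin n) F := by
    rintro _ ⟨a, ha, rfl⟩
    have h1 : (GU n F q).subtype (a ^ p) ∈ GU n F q ⊓ Geo.scalars (Fin n) F := by
      rw [← hsc]
      refine ⟨a ^ p, ?_, rfl⟩
      rw [SetLike.mem_coe, MonoidHom.mem_ker, map_pow]
      exact hE.2 _ ha
    exact (mem_inf.1 h1).2
  have hcc : ∀ x ∈ B, ∀ y ∈ B, x * y * x⁻¹ * y⁻¹ ∈ Geo.scalars (Fin n) F := by
    rintro _ ⟨a, ha, rfl⟩ _ ⟨b, hb, rfl⟩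
    have h1 : (GU n F q).subtype (a * b * a⁻¹ * b⁻¹) ∈ GU n F q ⊓ Geo.scalars (Fin n) F := by
      rw [← hsc]
      refine ⟨a * b * a⁻¹ * b⁻¹, ?_, rfl⟩
      rw [SetLike.mem_coe, MonoidHom.mem_ker, map_mul, map_mul, map_mul, map_inv, map_inv]
      have h2 : f a * f b = f b * f a :=
        congrArg (fun z : ↥E => (z : MulAut (PSU n F q))) (hE.1.1.1 ⟨_, ha⟩ ⟨_, hb⟩)
      rw [h2]
      group
    exact (mem_inf.1 h1).2
  -- the conclusion from a row
  have hfin : (∀ N : Subgroup (GL (Fin n) F), N ≤ GU n F q ⊓ Geo.specialLinear (Fin n) F →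
      HC p (GU n F q ⊓ Geo.scalars (Fin n) F) B (GU n F q ⊓ Geo.specialLinear (Fin n) F) N →
      GU n F q ⊓ Geo.specialLinear (Fin n) F ≤ N) → Gam p E = ⊤ := by
    intro h
    have hS : (sgu n F q).map (GU n F q).subtype = GU n F q ⊓ Geo.specialLinear (Fin n) F := by
      rw [sgu, subgroupOf_map_subtype, inf_comm]
    rw [← hmap]
    refine gam_of_lin f (sgu n F q) piU piU_surj ?_ A hker ?_
    · intro γ s t hst
      show pr n F q (semiConj γ 1 (toSU s)) = pr n F q (toSU t)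
      congr 1
      apply ext_act
      intro v
      rw [Schreier.PSU.act_semiConj_one', act_def, act_def, mat_toSU, mat_toSU, hst, gm_mul, gm_mul, mulVec_mulVec,
        mulVec_mulVec]
    · intro N hN hHC
      have h2 := hHC.map (GU n F q).subtype (GU n F q).subtype_injective
      rw [hsc, hS] at h2
      have h3 := h (N.map (GU n F q).subtype) (by rw [← hS]; exact map_mono hN) h2
      rw [← hS, map_le_map_iff_of_injective (GU n F q).subtype_injective] at h3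
      exact h3
  by_cases hcomm : ∀ x ∈ B, ∀ y ∈ B, x * y = y * x
  · refine hfin (hcom B hle hsc' hpow hcomm ?_ hani)
    rw [← hsc, hB, relIndex_map_map_of_injective _ _ (GU n F q).subtype_injective]
    have h1 : Nat.card ↥E = f.ker.relIndex A := by
      rw [← hmap]
      have h2 := relIndex_map_map f (⊥ : Subgroup (GU n F q)) A
      rw [Subgroup.map_bot, relIndex_bot_left, bot_sup_eq, sup_eq_left.2 hker] at h2
      exact h2
    rw [← h1]
    exact hc
  · push Not at hcomm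
    exact hfin (hnc B hle hsc' hpow hcc hcomm hani)

end row

end Cfsg.Agent.H490.Gen
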